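import Cfsg.Agent.Char.FrobWielandt
import Cfsg.Agent.Solv.FrobeniusComplement
import Cfsg.Agent.Inst.S0108
import Cfsg.Agent.Solv.FpfThompson
import Cfsg.Agent.Solv.FitTools

/-! A subgroup central in every solvable overgroup is central. -/

set_option autoImplicit false

namespace Cfsg.Lib.FlavB

open Subgroup Cfsg.Lib.FT Cfsg.Lib.Solv Cfsg.Lib.Solv.FH
open scoped commutatorElement Pointwise

universe u

theorem central_aux (n : ℕ) : ∀ (G : Type u) [Group G] [Finite G] (A : Subgroup G),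
    Nat.card G = n → Group.IsSolvable A →
    (∀ S : Subgroup G, A ≤ S → Group.IsSolvable S → S ≤ 𝐂 A) → ⊤ ≤ 𝐂 A := by
  induction n using Nat.strong_induction_on with
  | _ n ih =>
  intro G _ _ A hn hA hc
  by_contra hbad
  have sub : ∀ H : Subgroup G, A ≤ H → H ≠ ⊤ → H ≤ 𝐂 A := fun H hAH hH => by
    have h1 := ih _ (by
      rw [← hn, ← card_top (G := G)]; exact Solv.card_lt_of_lt (lt_top_iff_ne_top.2 hH)) H (A.subgroupOf H)
      rfl (solvable_of_solvable_injective (f := (subgroupOfEquivOfLe hAH).toMonoidHom)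
        (subgroupOfEquivOfLe hAH).injective) fun S hS hs x hx a ha => Subtype.ext
          (hc (S.map H.subtype) ((map_subgroupOf_eq_of_le hAH).ge.trans (map_mono hS))
            (solvable_of_surjective (H.subtype.subgroupMap_surjective S)) ⟨x, hx, rfl⟩ a ha)
    exact fun x hx a ha => congrArg Subtype.val (h1 (mem_top ⟨x, hx⟩) ⟨a, hAH ha⟩ ha)
  have nor : ∀ N : Subgroup G, A ≤ N → Group.IsSolvable N → ¬ ⊤ ≤ 𝐍 N := fun N h1 h2 h3 =>
    hbad fun g _ => hc (N ⊔ zpowers g) (h1.trans le_sup_left) (Fpf.isSolvable_sup_of_le_normalizer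
      (le_top.trans h3) h2 (Coprime.isSolvable_zpowers g)) (mem_sup_right (mem_zpowers g))
  have hZ : center G = ⊥ := by
    by_contra hZ
    have hs : Group.IsSolvable (center G) := Coprime.isSolvable_of_isMulCommutative _
    have hk : pre (qmk ⊤ (center G)) ⊥ = center G := ker_qmk le_top
    have h1 := ih _ (by
      rw [← hn, ← card_top (G := G), ← card_img_mul_of_ker_le (f := qmk ⊤ (center G)) le_rfl le_top, hk,
        img_qmk_self, card_top]
      exact lt_mul_of_one_lt_right Nat.card_pos ((one_lt_card_iff_ne_bot _).2 hZ)) _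
      (img (qmk ⊤ (center G)) A) rfl (solvable_img _ hA) fun S hS hs' => by
        rw [← img_pre_qmk S]
        exact img_cents _ (hc _ ((img_le_iff le_top).1 hS) (solvable_pre (hk.symm ▸ hs) hs'))
    rw [← img_qmk_self, img_cents_iff le_rfl le_top, hk] at h1
    refine nor (center G ⊔ A) le_sup_right (Fpf.isSolvable_sup_of_le_normalizer
      (le_normalizer_of_normal _ _) hs hA) (le_normalizer_iff_commutator_le.2 ?_)
    rw [commutator_comm, commutator_le]
    intro g _ x hx
    obtain ⟨z, hz, a, ha, rfl⟩ := (Coprime.mem_sup_iff (le_normalizer_of_normal _ _)).1 hx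
    have h2 : ⁅g, z * a⁆ = ⁅g, a⁆ := by
      rw [commutatorElement_def, commutatorElement_def, mul_inv_rev, ← mul_assoc g,
        mem_center_iff.1 hz g]
      calc z * g * a * g⁻¹ * (a⁻¹ * z⁻¹) = z * (g * a * g⁻¹ * a⁻¹) * z⁻¹ := by group
        _ = _ := by rw [← mem_center_iff.1 hz]; group
    rw [h2]
    exact mem_sup_left (h1 (commutator_mem_commutator (mem_top g) ha))
  have hAM : A ≤ 𝐂 A := hc A le_rfl hA
  have hM : 𝐂 A ≠ ⊤ := fun h => hbad h.ge
  have hN : 𝐍 (𝐂 A) ≤ 𝐂 A := sub _ (hAM.trans le_normalizer) fun h =>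
    nor (𝐂 A ⊓ 𝐂 (𝐂 A)) (le_inf hAM (le_centralizer_iff.1 le_rfl))
      (have : IsMulCommutative ↥(𝐂 A ⊓ 𝐂 (𝐂 A)) := le_centralizer_iff_isMulCommutative.1
        (inf_le_right.trans (centralizer_anti inf_le_left))
      Coprime.isSolvable_of_isMulCommutative _) (le_normalizer_inf_centralizer h.ge h.ge)
  have hC : ∀ x ∈ 𝐂 A, x ≠ 1 → 𝐂₁ x ≤ 𝐂 A := fun x hx h1 =>
    sub _ (fun a ha => mem_centralizer_singleton_iff.2 (hx a ha)) fun h => h1
      (mem_bot.1 (hZ ▸ mem_center_iff.2 fun g =>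
        mem_centralizer_singleton_iff.1 (h.ge (mem_top g))))
  obtain ⟨K, hK, hKc, -⟩ := Char.frobenius_of_TI (𝐂 A) fun g hg x hx hgx => by
    by_contra h1
    have h2 : g⁻¹ •ᶜ A ≤ 𝐂 A := le_trans (fun a ha => mem_centralizer_singleton_iff.2 (by
      have h3 := hgx _ (by simpa using mem_conj_smul.1 ha : g * a * g⁻¹ ∈ A)
      calc a * x = g⁻¹ * (g * a * g⁻¹ * (g * x * g⁻¹)) * g := by group
        _ = _ := by rw [h3]; group)) (hC x hx h1)
    rw [le_centralizer_iff, ← conj_smul_centralizer] at h2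
    have h3 := sub _ h2 (mt conj_smul_eq_top_iff.1 hM)
    exact hg (inv_mem_iff.1 (hN (mem_normalizer_iff_conj_smul_eq.2
      (eq_of_le_of_card_ge h3 (card_conj_smul _ _).ge))))
  have hA0 : A ≠ ⊥ := fun h => hbad (by rw [h]; exact fun g _ a ha => by rw [mem_bot.1 ha]; simp)
  obtain ⟨p, hp, h1⟩ := Nat.exists_prime_and_dvd (mt card_eq_one.1 hA0)
  have := Fact.mk hp
  obtain ⟨x, hx⟩ := exists_prime_orderOf_dvd_card' p h1
  have hx1 : (x : G) ≠ 1 := fun h => by
    rw [← orderOf_coe, h, orderOf_one] at hx; exact hp.one_lt.ne hx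
  have hnil := Fpf.isNilpotent_of_prime (K := K) (x := x) hp
    (le_normalizer_of_normal _ _ (mem_top _))
    (by rw [← hx, ← orderOf_coe, pow_orderOf_eq_one])
    (le_bot_iff.1 ((inf_le_inf_left K (hC x (hAM x.2) hx1)).trans hKc.disjoint.eq_bot.le))
  refine hbad (hKc.sup_eq_top.ge.trans (sup_le (le_sup_left.trans (hc (K ⊔ A) le_sup_right
    (Fpf.isSolvable_sup_of_le_normalizer (le_normalizer_of_normal _ _) inferInstance hA))) le_rfl))

end Cfsg.Lib.FlavB
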